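import Cfsg.Agent.H33.QRu.Fus
import Cfsg.Agent.RuD.Letters

/-!
# The right multiplications by `j` and `k` as words of the Rudvalis group, and a fusing element (helper33)

* `Wd w` : the element of `Ru` of the word `w` in the letters of `RuD.Letters`;
* `fus_TS` : the element `T S` (order 4) has a lift conjugate to its product by `-1`.
-/

set_option autoImplicit false
set_option maxRecDepth 100000

namespace Cfsg.Agent.H33.QRu

open Subgroup Cfsg.Spor Cfsg.Agent.H51.Mult Cfsg.Agent.H51.Tools Cfsg.Agent.H777.Ore Cfsg.Agent.H6.QO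
open Cfsg.Agent.H51.RuCover Cfsg.Agent.RuLat Cfsg.Agent.SporadicB Cfsg.Agent.RuD.Letters
open Cfsg.Agent.Lib Cfsg.Agent.Lib.BitNet Cfsg.Agent.SporadicB.RuOrder
open Cfsg.Agent.SporRec.TCUpperCert
open scoped commutatorElement

/-- the isomorphism on classes -/
theorem equiv_qm (f : fourRu) :
    ((Main.equiv (qm f) : RuOrder.H) : Equiv.Perm (Fin 4060)) = Main.hyp.hom f := rfl

/-! ### the images of the base lines -/

theorem vec_code {e i C s : ℕ} (h1 : Nat.beq (packL e i planes) C = true) (h2 : Nat.beq (scaleN i) s = true) :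
    gI ^ e • vec i = decv C s := by
  rw [← decv_packL, Nat.eq_of_beq_eq_true h1, Nat.eq_of_beq_eq_true h2]

theorem im_j {i i' : Fin 4060} (e C s C' s' : ℕ)
    (h1 : Nat.beq (packL 0 i planes) C = true) (h2 : Nat.beq (scaleN i) s = true)
    (h3 : Nat.beq (packL e i' planes) C' = true) (h4 : Nat.beq (scaleN i') s' = true)
    (h : ∀ q, ruRj (decv C s) q = decv C' s' q) : Main.hyp.hom j i = i' := by
  rw [Hyp.hom_apply]
  apply Main.hyp.im_unique _ _ _ e
  have e1 : vec i = decv C s := by rw [← vec_code h1 h2, pow_zero, one_smul]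
  rw [vec_code h3 h4, ← funext h, ← e1]
  rfl

theorem im_k {i i' : Fin 4060} (e C s C' s' : ℕ)
    (h1 : Nat.beq (packL 0 i planes) C = true) (h2 : Nat.beq (scaleN i) s = true)
    (h3 : Nat.beq (packL e i' planes) C' = true) (h4 : Nat.beq (scaleN i') s' = true)
    (h : ∀ q, ruRk (decv C s) q = decv C' s' q) : Main.hyp.hom k i = i' := by
  rw [Hyp.hom_apply]
  apply Main.hyp.im_unique _ _ _ e
  have e1 : vec i = decv C s := by rw [← vec_code h1 h2, pow_zero, one_smul]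
  rw [vec_code h3 h4, ← funext h, ← e1]
  rfl

theorem j0 : Main.hyp.hom j 0 = 580 :=
  im_j 0 0x1 4 0x10 4 (by decide +kernel) (by decide +kernel) (by decide +kernel) (by decide +kernel)
    (by decide +kernel)
theorem j1 : Main.hyp.hom j 29 = 638 :=
  im_j 0 0x4592d100068900000024c 1 0x6942530008d200000064a 1 (by decide +kernel) (by decide +kernel) (by decide +kernel)
    (by decide +kernel) (by decide +kernel)
theorem j2 : Main.hyp.hom j 580 = 0 :=
  im_j 2 0x10 4 0x3 4 (by decide +kernel) (by decide +kernel) (by decide +kernel) (by decide +kernel)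
    (by decide +kernel)
theorem j3 : Main.hyp.hom j 577 = 3680 :=
  im_j 2 0x2184010436c070080231c 1 0x440906202c04c011844c 1 (by decide +kernel) (by decide +kernel) (by decide +kernel)
    (by decide +kernel) (by decide +kernel)
theorem k0 : Main.hyp.hom k 0 = 161 :=
  im_k 0 0x1 4 0x80 4 (by decide +kernel) (by decide +kernel) (by decide +kernel) (by decide +kernel)
    (by decide +kernel)
theorem k1 : Main.hyp.hom k 29 = 667 :=
  im_k 0 0x4592d100068900000024c 1 0x6a249c00028b00000025a 1 (by decide +kernel) (by decide +kernel) (by decide +kernel)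
    (by decide +kernel) (by decide +kernel)
theorem k2 : Main.hyp.hom k 580 = 1544 :=
  im_k 0 0x10 4 0x400 4 (by decide +kernel) (by decide +kernel) (by decide +kernel) (by decide +kernel)
    (by decide +kernel)
theorem k3 : Main.hyp.hom k 577 = 1124 :=
  im_k 2 0x2184010436c070080231c 1 0x6180a010200c0090d0659 1 (by decide +kernel) (by decide +kernel) (by decide +kernel)
    (by decide +kernel) (by decide +kernel)

/-! ### the words -/

/-- equality with a word from the images of the base lines -/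
theorem eq_wprod {g : RuOrder.H} {w : List ℕ} (h1 : Nat.beq (evalK w 0) ((g : Equiv.Perm (Fin 4060)) b1 : ℕ) = true)
    (h2 : Nat.beq (evalK w 29) ((g : Equiv.Perm (Fin 4060)) b2 : ℕ) = true)
    (h3 : Nat.beq (evalK w 580) ((g : Equiv.Perm (Fin 4060)) b3 : ℕ) = true)
    (h4 : Nat.beq (evalK w 577) ((g : Equiv.Perm (Fin 4060)) b4 : ℕ) = true) : wprod ml w = g := by
  apply Cfsg.Agent.RuD.Letters.eq_of_base
  intro b hb
  rw [evalK_eq]
  simp only [List.mem_cons, List.not_mem_nil, or_false] at hb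
  rcases hb with rfl | rfl | rfl | rfl
  · exact Nat.eq_of_beq_eq_true h1
  · exact Nat.eq_of_beq_eq_true h2
  · exact Nat.eq_of_beq_eq_true h3
  · exact Nat.eq_of_beq_eq_true h4

/-- the word of the right multiplication by `j` -/
def wj : List ℕ := [1,1,3,0,5,1,3,5,1,7,4,5] ++ [0] ++ [5,8,3,6,5,7,6,5,0,7,6,6]
/-- the word of the right multiplication by `k` -/
def wk : List ℕ := [1,1,3,0,5,1,3,5,1,7,4,5] ++ [4,0,8] ++ [5,8,3,6,5,7,6,5,0,7,6,6]

theorem eval_j : (Nat.beq (evalK wj 0) 580 && (Nat.beq (evalK wj 29) 638 && (Nat.beq (evalK wj 580) 0 &&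
    Nat.beq (evalK wj 577) 3680))) = true := by decide +kernel
theorem eval_k : (Nat.beq (evalK wk 0) 161 && (Nat.beq (evalK wk 29) 667 && (Nat.beq (evalK wk 580) 1544 &&
    Nat.beq (evalK wk 577) 1124))) = true := by decide +kernel

theorem word_j : wprod ml wj = (Main.equiv (qm j) : RuOrder.H) := by
  have h := eval_j
  simp only [Bool.and_eq_true] at h
  obtain ⟨h1, h2, h3, h4⟩ := h
  refine eq_wprod ?_ ?_ ?_ ?_ <;> rw [equiv_qm]
  · rw [show (b1 : Fin 4060) = 0 from rfl, j0]; exact h1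
  · rw [show (b2 : Fin 4060) = 29 from rfl, j1]; exact h2
  · rw [show (b3 : Fin 4060) = 580 from rfl, j2]; exact h3
  · rw [show (b4 : Fin 4060) = 577 from rfl, j3]; exact h4

theorem word_k : wprod ml wk = (Main.equiv (qm k) : RuOrder.H) := by
  have h := eval_k
  simp only [Bool.and_eq_true] at h
  obtain ⟨h1, h2, h3, h4⟩ := h
  refine eq_wprod ?_ ?_ ?_ ?_ <;> rw [equiv_qm]
  · rw [show (b1 : Fin 4060) = 0 from rfl, k0]; exact h1
  · rw [show (b2 : Fin 4060) = 29 from rfl, k1]; exact h2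
  · rw [show (b3 : Fin 4060) = 580 from rfl, k2]; exact h3
  · rw [show (b4 : Fin 4060) = 577 from rfl, k3]; exact h4

/-! ### the fusing element -/

/-- the element of `Ru` of a word -/
noncomputable def Wd (w : List ℕ) : Ru := Main.equiv.symm (wprod ml w)

theorem Wd_append (v w : List ℕ) : Wd (v ++ w) = Wd v * Wd w := by
  rw [Wd, wprod_append, map_mul]; rfl

theorem Wd_of_eq {w : List ℕ} {y : fourRu} (h : wprod ml w = (Main.equiv (qm y) : RuOrder.H)) : Wd w = qm y := by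
  rw [Wd, h, MulEquiv.symm_apply_apply]

/-- a relator gives a trivial word -/
theorem Wd_eq_one {w : List ℕ} (h : chkRel [w] = true) : Wd w = 1 := by
  rw [Wd, rel_of_chk h w (List.mem_singleton.2 rfl), map_one]

/-- an element of order dividing 7 which commutes with `u` modulo the centre commutes with `u` -/
theorem comm_lift {a u : fourRu} (ha : qm a ^ 7 = 1) (hau : qm a * qm u = qm u * qm a) : a * u = u * a := by
  have hz : qm (a * u * a⁻¹ * u⁻¹) = 1 := by
    rw [map_mul, map_mul, map_mul, hau, map_inv, map_inv]; group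
  obtain ⟨z, hz'⟩ : ∃ z, z = a * u * a⁻¹ * u⁻¹ := ⟨_, rfl⟩
  rw [← hz'] at hz
  have hzc : ∀ y, z * y = y * z := fun y => (mem_center_iff.1 (ker_qm hz) y).symm
  have h1 : ∀ n : ℕ, a ^ n * u * (a ^ n)⁻¹ = z ^ n * u := by
    intro n
    induction n with
    | zero => simp
    | succ n ih =>
      calc a ^ (n + 1) * u * (a ^ (n + 1))⁻¹ = a * (a ^ n * u * (a ^ n)⁻¹) * a⁻¹ := by rw [pow_succ']; group
        _ = a * (z ^ n * u) * a⁻¹ := by rw [ih]
        _ = (a * z ^ n) * u * a⁻¹ := by group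
        _ = (z ^ n * a) * u * a⁻¹ := by rw [((show Commute z a from hzc a).pow_left n).eq]
        _ = z ^ n * (a * u * a⁻¹ * u⁻¹) * u := by group
        _ = z ^ (n + 1) * u := by rw [← hz', pow_succ]
  have h7 : z ^ 7 = 1 := by
    have h2 := h1 7
    have h3 : qm (a ^ 7) = 1 := by rw [map_pow, ha]
    have h4 := mem_center_iff.1 (ker_qm h3) u
    have h5 : a ^ 7 * u * (a ^ 7)⁻¹ = 1 * u := by rw [← h4]; group
    rw [h5] at h2
    exact (mul_right_cancel h2).symm
  have h4 : z ^ 4 = 1 := by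
    have h5 : (⟨z, ker_qm hz⟩ : center fourRu) ^ Nat.card (center fourRu) = 1 := pow_card_eq_one'
    rw [Main.main.1] at h5
    exact congrArg Subtype.val h5
  have hz1 : z = 1 := by
    calc z = z ^ 4 * z ^ 4 * (z ^ 7)⁻¹ := by group
      _ = 1 := by rw [h4, h7]; simp
  rw [hz'] at hz1
  calc a * u = (a * u * a⁻¹ * u⁻¹) * (u * a) := by group
    _ = u * a := by rw [hz1, one_mul]

/-- the conjugating word -/
def wh : List ℕ := [1,1,3,0,5,1,3,5,1,7,4,5]
def wh' : List ℕ := [5,8,3,6,5,7,6,5,0,7,6,6]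

theorem rels_ok : chkRel [wh ++ wh', [3,3,3,3,3,3,3], [1,3,1,3,1,3,1,3,1,3,1,3,1,3], [3,7], [4,8], [0,0], [1,6],
    [1,3] ++ [4,0,8] ++ [7,6] ++ [4,0,8], [7] ++ [4,0,8] ++ [3] ++ [4,0,8]] = true := by decide +kernel

theorem fus_T {a b : fourRu} (ha : qm a ^ 7 = 1) (hb : qm b ^ 7 = 1) (hau : qm a * Wd [4,0,8] = Wd [4,0,8] * qm a)
    (hbu : qm b * Wd [4,0,8] = Wd [4,0,8] * qm b) : Fus (Wd [0] * qm a * qm b) := by
  obtain ⟨h, hh⟩ := qm_surj (Wd wh)
  have e1 : Wd wh * Wd wh' = 1 := by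
    rw [← Wd_append, Wd, rel_of_chk rels_ok _ (List.mem_cons_self ..), map_one]
  have e2 : Wd wh' = (qm h)⁻¹ := by rw [hh]; exact (inv_eq_of_mul_eq_one_right e1).symm
  have hj : qm (h⁻¹ * j * h) = Wd [0] := by
    rw [map_mul, map_mul, map_inv, ← Wd_of_eq word_j, show wj = wh ++ [0] ++ wh' from rfl, Wd_append, Wd_append, e2,
      ← hh]
    group
  have hk : qm (h⁻¹ * k * h) = Wd [4,0,8] := by
    rw [map_mul, map_mul, map_inv, ← Wd_of_eq word_k, show wk = wh ++ [4,0,8] ++ wh' from rfl, Wd_append, Wd_append,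
      e2, ← hh]
    group
  have ca : a * (h⁻¹ * k * h) = (h⁻¹ * k * h) * a := comm_lift ha (by rw [hk, hau])
  have cb : b * (h⁻¹ * k * h) = (h⁻¹ * k * h) * b := comm_lift hb (by rw [hk, hbu])
  refine ⟨h⁻¹ * j * h * a * b, h⁻¹ * k * h, by rw [map_mul, map_mul, hj], ?_⟩
  have hnu : k * j * k⁻¹ = j * nu := by
    have h1 : nu⁻¹ = nu := by
      have h2 := pow_orderOf_eq_one nu
      rw [orderOf_comm, pow_two] at h2
      exact inv_eq_of_mul_eq_one_right h2
    calc k * j * k⁻¹ = (j * k * j⁻¹ * k⁻¹)⁻¹ * j := by group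
      _ = nu⁻¹ * j := rfl
      _ = j * nu := by rw [h1, nu_central]
  have key : ∀ u : fourRu, a * u = u * a → b * u = u * b → ∀ t : fourRu, u * t * u⁻¹ = t * nu →
      u * (t * a * b) * u⁻¹ = t * a * b * nu := by
    intro u h1 h2 t h3
    have h4 : u * a * u⁻¹ = a := by rw [← h1]; group
    have h5 : u * b * u⁻¹ = b := by rw [← h2]; group
    calc u * (t * a * b) * u⁻¹ = (u * t * u⁻¹) * (u * a * u⁻¹) * (u * b * u⁻¹) := by group
      _ = t * (nu * (a * b)) := by rw [h3, h4, h5]; group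
      _ = t * ((a * b) * nu) := by rw [nu_central]
      _ = t * a * b * nu := by group
  refine key _ ca cb _ ?_
  calc h⁻¹ * k * h * (h⁻¹ * j * h) * (h⁻¹ * k * h)⁻¹ = h⁻¹ * (k * j * k⁻¹) * h := by group
    _ = h⁻¹ * j * (nu * h) := by rw [hnu]; group
    _ = h⁻¹ * j * (h * nu) := by rw [nu_central]
    _ = h⁻¹ * j * h * nu := by group

theorem Wd_rel {w : List ℕ} (h : w ∈ [wh ++ wh', [3,3,3,3,3,3,3], [1,3,1,3,1,3,1,3,1,3,1,3,1,3], [3,7], [4,8], [0,0],
    [1,6], [1,3] ++ [4,0,8] ++ [7,6] ++ [4,0,8], [7] ++ [4,0,8] ++ [3] ++ [4,0,8]]) : Wd w = 1 := by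
  rw [Wd, rel_of_chk rels_ok _ h, map_one]

/-- **`T S` has a lift conjugate to its product by `-1`** -/
theorem fus_TS : Fus (Wd [0,1]) := by
  obtain ⟨a, ha⟩ := qm_surj (Wd [1,3])
  obtain ⟨b, hb⟩ := qm_surj (Wd [7])
  have hUU : Wd [4,0,8] * Wd [4,0,8] = 1 := by
    have h1 : Wd [4] * Wd [8] = 1 := by rw [← Wd_append]; exact Wd_rel (by simp)
    have h2 : Wd [0] * Wd [0] = 1 := by rw [← Wd_append]; exact Wd_rel (by simp)
    have h3 : Wd [4,0,8] = Wd [4] * Wd [0] * Wd [8] := by rw [← Wd_append, ← Wd_append]; rfl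
    have h4 : Wd [8] = (Wd [4])⁻¹ := (inv_eq_of_mul_eq_one_right h1).symm
    rw [h3, h4]
    calc Wd [4] * Wd [0] * (Wd [4])⁻¹ * (Wd [4] * Wd [0] * (Wd [4])⁻¹) = Wd [4] * (Wd [0] * Wd [0]) * (Wd [4])⁻¹ := by
          group
      _ = 1 := by rw [h2]; group
  have h37 : Wd [3] * Wd [7] = 1 := by rw [← Wd_append]; exact Wd_rel (by simp)
  have h16 : Wd [1] * Wd [6] = 1 := by rw [← Wd_append]; exact Wd_rel (by simp)
  have e13 : Wd [1,3] = Wd [1] * Wd [3] := by rw [← Wd_append]; rfl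
  have e76 : Wd [7,6] = (Wd [1,3])⁻¹ := by
    have h1 : Wd [7,6] = Wd [7] * Wd [6] := by rw [← Wd_append]; rfl
    rw [h1, e13, mul_inv_rev, ← inv_eq_of_mul_eq_one_right h37, ← inv_eq_of_mul_eq_one_right h16]
  have e7 : Wd [7] = (Wd [3])⁻¹ := (inv_eq_of_mul_eq_one_right h37).symm
  have p7 : Wd [3] ^ 7 = 1 := by
    have h1 : Wd [3,3,3,3,3,3,3] = 1 := Wd_rel (by simp)
    rw [← h1, show ([3,3,3,3,3,3,3] : List ℕ) = [3] ++ [3] ++ [3] ++ [3] ++ [3] ++ [3] ++ [3] from rfl]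
    simp only [Wd_append, pow_succ, pow_zero, one_mul]
  have q7 : Wd [1,3] ^ 7 = 1 := by
    have h1 : Wd [1,3,1,3,1,3,1,3,1,3,1,3,1,3] = 1 := Wd_rel (by simp)
    rw [← h1, show ([1,3,1,3,1,3,1,3,1,3,1,3,1,3] : List ℕ) =
      [1,3] ++ [1,3] ++ [1,3] ++ [1,3] ++ [1,3] ++ [1,3] ++ [1,3] from rfl]
    simp only [Wd_append, pow_succ, pow_zero, one_mul]
  have c1 : Wd [1,3] * Wd [4,0,8] = Wd [4,0,8] * Wd [1,3] := by
    have h1 : Wd [1,3] * Wd [4,0,8] * Wd [7,6] * Wd [4,0,8] = 1 := by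
      rw [← Wd_append, ← Wd_append, ← Wd_append]; exact Wd_rel (by simp)
    rw [e76] at h1
    calc Wd [1,3] * Wd [4,0,8] = (Wd [1,3] * Wd [4,0,8] * (Wd [1,3])⁻¹ * Wd [4,0,8]) * (Wd [4,0,8])⁻¹ * Wd [1,3] := by
          group
      _ = Wd [4,0,8] * Wd [1,3] := by rw [h1, one_mul, ← eq_inv_of_mul_eq_one_left hUU]
  have c2 : Wd [7] * Wd [4,0,8] = Wd [4,0,8] * Wd [7] := by
    have h1 : Wd [7] * Wd [4,0,8] * Wd [3] * Wd [4,0,8] = 1 := by
      rw [← Wd_append, ← Wd_append, ← Wd_append]; exact Wd_rel (by simp)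
    have h3 : Wd [3] = (Wd [7])⁻¹ := by rw [e7, inv_inv]
    rw [h3] at h1
    calc Wd [7] * Wd [4,0,8] = (Wd [7] * Wd [4,0,8] * (Wd [7])⁻¹ * Wd [4,0,8]) * (Wd [4,0,8])⁻¹ * Wd [7] := by
          group
      _ = Wd [4,0,8] * Wd [7] := by rw [h1, one_mul, ← eq_inv_of_mul_eq_one_left hUU]
  have h := fus_T (a := a) (b := b) (by rw [ha, q7]) (by rw [hb, e7, inv_pow, p7, inv_one]) (by rw [ha, c1])
    (by rw [hb, c2])
  rw [ha, hb, e13, e7] at h
  have h3 : Wd [0] * (Wd [1] * Wd [3]) * (Wd [3])⁻¹ = Wd [0,1] := by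
    rw [show ([0,1] : List ℕ) = [0] ++ [1] from rfl, Wd_append]; group
  rwa [h3] at h

end Cfsg.Agent.H33.QRu
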