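import Cfsg.Agent.H33.QRu.Tool
import Cfsg.Agent.H51.Ore.RuMain

/-!
# Ore's theorem for the double cover of the Rudvalis group: the row (helper33)

Every nontrivial class of the Rudvalis group (`H51.Ore.Ru.cover`) contains a commutator `[T S, k]`.
-/

set_option autoImplicit false
set_option maxRecDepth 100000

namespace Cfsg.Agent.H33.QRu

open Cfsg.Spor Cfsg.Agent.RuLat Cfsg.Agent.SporadicB Cfsg.Agent.RuD.Letters Cfsg.Agent.H6.QO
open Cfsg.Agent.SporRec.TCUpperCert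

theorem q_2a : Good (Wd H51.Ore.Ru.w_2a) :=
  good_of_chk [4] [4] rfl rfl (by decide +kernel)
theorem q_2b : Good (Wd H51.Ore.Ru.w_2b) :=
  good_of_chk [7,2] [3,1,7] rfl rfl (by decide +kernel)
theorem q_3a : Good (Wd H51.Ore.Ru.w_3a) :=
  good_of_chk [0] [5] rfl rfl (by decide +kernel)
theorem q_4a : Good (Wd H51.Ore.Ru.w_4a) :=
  good_of_chk [8,1] [3] rfl rfl (by decide +kernel)
theorem q_4b : Good (Wd H51.Ore.Ru.w_4b) :=
  good_of_chk [4,7,5,3,6,4,7,5,3,6,3,0] [7,5,3] rfl rfl (by decide +kernel)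
theorem q_4c : Good (Wd H51.Ore.Ru.w_4c) :=
  good_of_chk [6,4,3,0,5,1] [4,3,5] rfl rfl (by decide +kernel)
theorem q_4d : Good (Wd H51.Ore.Ru.w_4d) :=
  good_of_chk [4,3,5,7,5,7,5,1,7,5,0,8,6,7,0] [3,4] rfl rfl (by decide +kernel)
theorem q_5a : Good (Wd H51.Ore.Ru.w_5a) :=
  good_of_chk [1] [2] rfl rfl (by decide +kernel)
theorem q_5b : Good (Wd H51.Ore.Ru.w_5b) :=
  good_of_chk [8,3,5,0,3,6,7,5,3,1,3,0,8] [4,5] rfl rfl (by decide +kernel)
theorem q_6a : Good (Wd H51.Ore.Ru.w_6a) :=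
  good_of_chk [5,3,6,2,3,6,5,7,1,3,5,2,1,0] [3,1,7,5] rfl rfl (by decide +kernel)
theorem q_7a : Good (Wd H51.Ore.Ru.w_7a) :=
  good_of_chk [6,4,7,2,1,3,2,1] [2,7] rfl rfl (by decide +kernel)
theorem q_8a : Good (Wd H51.Ore.Ru.w_8a) :=
  good_of_chk [0,4,3,5,3,5,1,3,5,3,8,6,3,2,0] [5,3] rfl rfl (by decide +kernel)
theorem q_8b : Good (Wd H51.Ore.Ru.w_8b) :=
  good_of_chk [2,5,0,8,3,6,7,5,7,0,5,3,6,0,4] [4,5,3] rfl rfl (by decide +kernel)
theorem q_8c : Good (Wd H51.Ore.Ru.w_8c) :=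
  good_of_chk [0,8,5,3,5,1,3,3,5,1,3,3,6,7] [5,4,3] rfl rfl (by decide +kernel)
theorem q_10a : Good (Wd H51.Ore.Ru.w_10a) :=
  good_of_chk [4,2] [2,4] rfl rfl (by decide +kernel)
theorem q_10b : Good (Wd H51.Ore.Ru.w_10b) :=
  good_of_chk [7,7,5,0,1,7,6,3,5,7,2,1,3,2] [3,5,7] rfl rfl (by decide +kernel)
theorem q_12a : Good (Wd H51.Ore.Ru.w_12a) :=
  good_of_chk [6,7,8,5,7,7,6,2,5,3,5,7,6,7,7,1,0] [3,4,5] rfl rfl (by decide +kernel)
theorem q_12b : Good (Wd H51.Ore.Ru.w_12b) :=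
  good_of_chk [7,6,3,8,1,7,5,0,3,6,5,2,1,3,1,1,0] [2,5,7] rfl rfl (by decide +kernel)
theorem q_13a : Good (Wd H51.Ore.Ru.w_13a) :=
  good_of_chk [8,7,6,4,7,2,1,1] [2,3] rfl rfl (by decide +kernel)
theorem q_14a : Good (Wd H51.Ore.Ru.w_14a) :=
  good_of_chk [6,6,3,5,3,6,5,0,4,7,5,7] [2,4,7] rfl rfl (by decide +kernel)
theorem q_14b : Good (Wd H51.Ore.Ru.w_14b) :=
  good_of_chk [0,6,6,5,7,6,2,3,1,3,6,5,7,1,3,8,2,1] [5,3,5] rfl rfl (by decide +kernel)
theorem q_14c : Good (Wd H51.Ore.Ru.w_14c) :=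
  good_of_chk [6,4,7,2,1,3,2,1] [2,7,4] rfl rfl (by decide +kernel)
theorem q_15a : Good (Wd H51.Ore.Ru.w_15a) :=
  good_of_chk [0,3,5,7,6,6,2,7,5,1,7,1,3,1,7,5,0] [2,5] rfl rfl (by decide +kernel)
theorem q_16a : Good (Wd H51.Ore.Ru.w_16a) :=
  good_of_chk [3,1,2,6,7,6,6,5,3,4,5,1,3,5,4,7,0] [2,1,5,7] rfl rfl (by decide +kernel)
theorem q_20a : Good (Wd H51.Ore.Ru.w_20a) :=
  good_of_chk [0,7,6,2,6,3,6,7,5,3,6,4,3,2,6,5,0] [3,3,3,5] rfl rfl (by decide +kernel)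
theorem q_20b : Good (Wd H51.Ore.Ru.w_20b) :=
  good_of_chk [5,7,8,5,3,5,1,7,2,6,3,1,7,5,0] [5,3,4] rfl rfl (by decide +kernel)
theorem q_20c : Good (Wd H51.Ore.Ru.w_20c) :=
  good_of_chk [5,0,8,3,5,3,6,2,1,7,5,0,4,3,1,1,0] [3,5] rfl rfl (by decide +kernel)
theorem q_24a : Good (Wd H51.Ore.Ru.w_24a) :=
  good_of_chk [7,6,2,8,5,0,1,3,5,3,6,3,8,2,1,1] [2,1,5,3,8] rfl rfl (by decide +kernel)
theorem q_24b : Good (Wd H51.Ore.Ru.w_24b) :=
  good_of_chk [3,6,2,7,1,7,4,5,3,5,4,1,2] [2,3,5] rfl rfl (by decide +kernel)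
theorem q_26a : Good (Wd H51.Ore.Ru.w_26a) :=
  good_of_chk [6,4,7,5,3,6,5,7,6,4,0,5,3,8,2,0] [2,3,3,8] rfl rfl (by decide +kernel)
theorem q_26b : Good (Wd H51.Ore.Ru.w_26b) :=
  good_of_chk [1,3,3,5,7,5,7,1,3,1,3,5,7,6,4,0] [2,3,4] rfl rfl (by decide +kernel)
theorem q_26c : Good (Wd H51.Ore.Ru.w_26c) :=
  good_of_chk [8,7,6,4,7,2,1,1] [2,3,8] rfl rfl (by decide +kernel)
theorem q_29a : Good (Wd H51.Ore.Ru.w_29a) :=
  good_of_chk [0,5,1,7,5,7,6,2,6,5,3,4,0,5,7,6] [2,1,3,5] rfl rfl (by decide +kernel)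
theorem q_29b : Good (Wd H51.Ore.Ru.w_29b) :=
  good_of_chk [5,7,8,0,1,7,6,5,3,3,1,2,1,1,7] [2,4,7,5] rfl rfl (by decide +kernel)

theorem good_of_conj {w : List ℕ} (hw : Good (Wd w)) {g : Ru} (h : IsConj (wprod ml w) (Main.equiv g : RuOrder.H)) :
    Good g := by
  refine hw.of_isConj ?_
  obtain ⟨c, hc⟩ := isConj_iff.1 h
  refine IsConj.symm (isConj_iff.2 ⟨Main.equiv.symm c, ?_⟩)
  rw [Wd, ← map_mul, ← map_inv, ← map_mul, hc, MulEquiv.symm_apply_apply]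

/-- **every nontrivial class of `Ru` contains a commutator with a fusing element** -/
theorem good_all (g : Ru) (hg : g ≠ 1) : Good g := by
  rcases H51.Ore.Ru.cover (Main.equiv g) with ⟨r, hr, h⟩ | h
  · simp only [H51.Ore.Ru.cls, List.mem_cons, List.not_mem_nil, or_false] at hr
    rcases hr with rfl | rfl | rfl | rfl | rfl | rfl | rfl | rfl | rfl | rfl | rfl | rfl | rfl | rfl | rfl | rfl | rfl | rfl | rfl | rfl | rfl | rfl | rfl | rfl | rfl | rfl | rfl | rfl | rfl | rfl | rfl | rfl | rfl | rfl | rfl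
    · exfalso
      have h1 : (Main.equiv g : RuOrder.H) = 1 := isConj_one_right.1 h
      exact hg (Main.equiv.injective (by rw [map_one]; exact h1))
    exacts [good_of_conj q_2a h,
      good_of_conj q_2b h,
      good_of_conj q_3a h,
      good_of_conj q_4a h,
      good_of_conj q_4b h,
      good_of_conj q_4c h,
      good_of_conj q_4d h,
      good_of_conj q_5a h,
      good_of_conj q_5b h,
      good_of_conj q_6a h,
      good_of_conj q_7a h,
      good_of_conj q_8a h,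
      good_of_conj q_8b h,
      good_of_conj q_8c h,
      good_of_conj q_10a h,
      good_of_conj q_10b h,
      good_of_conj q_12a h,
      good_of_conj q_12b h,
      good_of_conj q_13a h,
      good_of_conj q_14a h,
      good_of_conj q_14b h,
      good_of_conj q_14c h,
      good_of_conj q_15a h,
      good_of_conj q_16a h,
      good_of_conj q_20a h,
      good_of_conj q_20b h,
      good_of_conj q_20c h,
      good_of_conj q_24a h,
      good_of_conj q_24b h,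
      good_of_conj q_26a h,
      good_of_conj q_26b h,
      good_of_conj q_26c h,
      good_of_conj q_29a h,
      good_of_conj q_29b h]
  · have h1 : IsConj (wprod ml H51.Ore.Ru.w_16a) (Main.equiv g⁻¹ : RuOrder.H) := by
      obtain ⟨c, hc⟩ := isConj_iff.1 h
      refine isConj_iff.2 ⟨c, ?_⟩
      rw [map_inv, ← hc]; group
    have h2 := (good_of_conj q_16a h1).inv
    rwa [inv_inv] at h2

/-- **S2491, S2492, row 2.Ru** -/
theorem rowA_ru : RowA Ru := rowA_of fun g hg => good_all g hg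

/-- the row for a copy in any universe -/
theorem row_ru {S : Type*} [Group S] (h : Cfsg.Spor.IsoRu S) : RowA S := by
  obtain ⟨e⟩ := h
  exact rowA_ru.congr e.symm

end Cfsg.Agent.H33.QRu
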