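import Cfsg.Agent.H33.QRu.JK

/-!
# Commutators `[T S, k]` in the classes of the Rudvalis group: the checks (helper33)
-/

set_option autoImplicit false

namespace Cfsg.Agent.H33.QRu

open Cfsg.Spor Cfsg.Agent.RuLat Cfsg.Agent.SporadicB Cfsg.Agent.RuD.Letters Cfsg.Agent.Lib Cfsg.Agent.Lib.BitNet
open Cfsg.Agent.SporRec.TCUpperCert

/-- `g` is conjugate to a commutator `[x, y]` with `x` fusing -/
def Good (g : Ru) : Prop := ∃ x y : Ru, Fus x ∧ IsConj g (x * y * x⁻¹ * y⁻¹)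

theorem Good.inv {g : Ru} (h : Good g) : Good g⁻¹ := by
  obtain ⟨x, y, hx, hg⟩ := h
  obtain ⟨c, hc⟩ := isConj_iff.1 hg
  refine ⟨y * x * y⁻¹, y⁻¹, hx.conj y, isConj_iff.2 ⟨c, ?_⟩⟩
  calc c * g⁻¹ * c⁻¹ = (c * g * c⁻¹)⁻¹ := by group
    _ = (x * y * x⁻¹ * y⁻¹)⁻¹ := by rw [hc]
    _ = _ := by group

theorem Good.of_isConj {g g' : Ru} (h : Good g) (e : IsConj g' g) : Good g' := by
  obtain ⟨x, y, hx, hg⟩ := h
  exact ⟨x, y, hx, e.trans hg⟩

/-- inverse letters -/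
def iv : List ℕ := [0, 6, 2, 7, 8, 5, 1, 3, 4]

/-- the inverse word -/
def ivw (w : List ℕ) : List ℕ := (w.map (iv.getD · 0)).reverse

theorem Wd_iv : ∀ a < 9, Wd [a] * Wd [iv.getD a 0] = 1 := by
  have h : chkRel [[0,0],[1,6],[2,2],[3,7],[4,8],[5,5],[6,1],[7,3],[8,4]] = true := by decide +kernel
  have key := rel_of_chk h
  intro a ha
  rw [← Wd_append, Wd]
  interval_cases a <;> rw [key _ (by simp [iv]), map_one]

theorem Wd_ivw {w : List ℕ} (h : w.all (· < 9) = true) : Wd (ivw w) = (Wd w)⁻¹ := by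
  induction w with
  | nil => rw [show ivw [] = [] from rfl, show Wd [] = 1 from map_one _, inv_one]
  | cons a w ih =>
    rw [List.all_cons, Bool.and_eq_true] at h
    have h1 : ivw (a :: w) = ivw w ++ [iv.getD a 0] := by simp [ivw]
    have h2 : Wd (a :: w) = Wd [a] * Wd w := by rw [← Wd_append]; rfl
    rw [h1, Wd_append, ih h.2, h2, mul_inv_rev, inv_eq_of_mul_eq_one_right (Wd_iv a (by simpa using h.1))]

/-- the check: `g w g⁻¹ = [T S, k]` -/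
theorem good_of_chk {w : List ℕ} (g k : List ℕ) (hg : g.all (· < 9) = true) (hk : k.all (· < 9) = true)
    (h : chkRel [g ++ w ++ ivw g ++ (k ++ [0,1] ++ ivw k ++ [6,0])] = true) : Good (Wd w) := by
  have h1 := Wd_eq_one h
  simp only [Wd_append] at h1
  rw [Wd_ivw hg, Wd_ivw hk] at h1
  have h2 : Wd [6,0] = (Wd [0,1])⁻¹ := Wd_ivw (w := [0,1]) rfl
  rw [h2] at h1
  refine ⟨Wd [0,1], Wd k, fus_TS, isConj_iff.2 ⟨Wd g, ?_⟩⟩
  calc Wd g * Wd w * (Wd g)⁻¹ = (Wd g * Wd w * (Wd g)⁻¹ * (Wd k * Wd [0,1] * (Wd k)⁻¹ * (Wd [0,1])⁻¹)) *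
        (Wd [0,1] * Wd k * (Wd [0,1])⁻¹ * (Wd k)⁻¹) := by group
    _ = _ := by rw [h1, one_mul]

end Cfsg.Agent.H33.QRu
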